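import Mathlib
import Cfsg.Agent.Lib.Linalg.GL2Conj

/-!
# Block calculus in `Sp₄`: Siegel parabolic, Levi elements, conjugation lemmas
-/

set_option autoImplicit false

namespace Cfsg.Agent.Lib.OreP4

open Matrix Cfsg.Agent.Lib.Linalg.GL2Conj

variable {F : Type*} [Field F]

/-- The symplectic group on `F⁴`, as in Mathlib. -/
abbrev SP (F : Type*) [Field F] := ↥(Matrix.symplecticGroup (Fin 2) F)

/-- `2 × 2` matrices. -/
abbrev M2 (F : Type*) := Matrix (Fin 2) (Fin 2) F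

/-- `4 × 4` matrices. -/
abbrev M4 (F : Type*) := Matrix (Fin 2 ⊕ Fin 2) (Fin 2 ⊕ Fin 2) F

omit [Field F] in
theorem eq_entries {F : Type*} {A B : M2 F} (h00 : A 0 0 = B 0 0) (h01 : A 0 1 = B 0 1)
    (h10 : A 1 0 = B 1 0) (h11 : A 1 1 = B 1 1) : A = B := by
  ext i j
  fin_cases i <;> fin_cases j <;> assumption

/-- Upper unipotent block element. -/
def up (S : M2 F) (hS : Sᵀ = S) : SP F :=
  ⟨fromBlocks 1 S 0 1, SymplecticGroup.fromBlocks_mem_iff.2 ⟨by simp, by simp [hS], by simp⟩⟩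

/-- Lower unipotent block element. -/
def low (S : M2 F) (hS : Sᵀ = S) : SP F :=
  ⟨fromBlocks 1 0 S 1, SymplecticGroup.fromBlocks_mem_iff.2 ⟨by simp [hS], by simp, by simp⟩⟩

theorem transpose_P (N : GL (Fin 2) F) :
    ((N : M2 F))ᵀ * (((N⁻¹ : GL (Fin 2) F) : M2 F))ᵀ = 1 := by
  rw [← transpose_mul, ← Units.val_mul, inv_mul_cancel]
  simp

theorem P_transpose (N : GL (Fin 2) F) :
    (((N⁻¹ : GL (Fin 2) F) : M2 F))ᵀ * ((N : M2 F))ᵀ = 1 := by
  rw [← transpose_mul, ← Units.val_mul, mul_inv_cancel]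
  simp

/-- The Levi subgroup `GL₂ → Sp₄`. -/
def lev : GL (Fin 2) F →* SP F where
  toFun N := ⟨fromBlocks (N : M2 F) 0 0 (((N⁻¹ : GL (Fin 2) F) : M2 F))ᵀ,
    SymplecticGroup.fromBlocks_mem_iff.2 ⟨by simp, by simp, by simpa using transpose_P N⟩⟩
  map_one' := by
    apply Subtype.ext
    simp [fromBlocks_one]
  map_mul' a b := by
    apply Subtype.ext
    simp only [Submonoid.coe_mul, fromBlocks_multiply, mul_zero, zero_mul, add_zero, zero_add, _root_.mul_inv_rev,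
      Units.val_mul, transpose_mul]

@[simp] theorem coe_up (S : M2 F) (hS : Sᵀ = S) : ((up S hS : SP F) : M4 F) = fromBlocks 1 S 0 1 := rfl
@[simp] theorem coe_low (S : M2 F) (hS : Sᵀ = S) : ((low S hS : SP F) : M4 F) = fromBlocks 1 0 S 1 := rfl
@[simp] theorem coe_lev (N : GL (Fin 2) F) :
    ((lev N : SP F) : M4 F) = fromBlocks (N : M2 F) 0 0 (((N⁻¹ : GL (Fin 2) F) : M2 F))ᵀ := rfl

/-- The symplectic form element. -/
def jj : SP F := SymplecticGroup.symJ (Fin 2) F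

theorem coe_jj : ((jj : SP F) : M4 F) = fromBlocks 0 (-1) 1 0 := rfl

/-- Compute a conjugate from an intertwining relation of matrices. -/
theorem coe_conj_of_mul (c y : SP F) (m : M4 F)
    (h : (c : M4 F) * (y : M4 F) = m * (c : M4 F)) :
    ((c * y * c⁻¹ : SP F) : M4 F) = m := by
  have h1 : ((c * y * c⁻¹ : SP F) : M4 F) = (c : M4 F) * (y : M4 F) * ((c⁻¹ : SP F) : M4 F) := rfl
  rw [h1, h, Matrix.mul_assoc]
  have h2 : (c : M4 F) * ((c⁻¹ : SP F) : M4 F) = ((c * c⁻¹ : SP F) : M4 F) := rfl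
  rw [h2, mul_inv_cancel]
  simp

/-- Blocks of a symplectic matrix. -/
theorem exists_blocks (y : SP F) : ∃ A B C D : M2 F, (y : M4 F) = fromBlocks A B C D ∧
    Aᵀ * C = Cᵀ * A ∧ Bᵀ * D = Dᵀ * B ∧ Aᵀ * D - Cᵀ * B = 1 ∧
    A * Bᵀ = B * Aᵀ ∧ C * Dᵀ = D * Cᵀ ∧ A * Dᵀ - B * Cᵀ = 1 := by
  obtain ⟨m, hm⟩ := y
  refine ⟨m.toBlocks₁₁, m.toBlocks₁₂, m.toBlocks₂₁, m.toBlocks₂₂, (fromBlocks_toBlocks m).symm, ?_⟩
  have h1 := hm
  rw [← fromBlocks_toBlocks m] at h1
  obtain ⟨a, b, c⟩ := SymplecticGroup.fromBlocks_mem_iff.1 h1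
  have h2 := SymplecticGroup.transpose_mem hm
  rw [← fromBlocks_toBlocks m, fromBlocks_transpose] at h2
  obtain ⟨d, e, f⟩ := SymplecticGroup.fromBlocks_mem_iff.1 h2
  simp only [transpose_transpose] at d e f
  exact ⟨a, b, c, d, e, f⟩

/-- The Levi element of the transpose inverse. -/
def gltr (N : GL (Fin 2) F) : GL (Fin 2) F :=
  ⟨((N⁻¹ : GL (Fin 2) F) : M2 F)ᵀ, (N : M2 F)ᵀ, P_transpose N, transpose_P N⟩

theorem coe_gltr (N : GL (Fin 2) F) : ((gltr N : GL (Fin 2) F) : M2 F) = ((N⁻¹ : GL (Fin 2) F) : M2 F)ᵀ := rfl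

theorem coe_gltr_inv (N : GL (Fin 2) F) : (((gltr N)⁻¹ : GL (Fin 2) F) : M2 F) = (N : M2 F)ᵀ := rfl

/-- `J` swaps the two blocks of a Levi element. -/
theorem isConj_lev_gltr (N : GL (Fin 2) F) : IsConj (lev N) (lev (gltr N)) := by
  rw [isConj_iff]
  refine ⟨jj, ?_⟩
  apply Subtype.ext
  rw [coe_conj_of_mul jj (lev N) ((lev (gltr N) : SP F) : M4 F)]
  rw [coe_jj, coe_lev, coe_lev, coe_gltr, coe_gltr_inv, fromBlocks_multiply, fromBlocks_multiply]
  simp

/-! ### Solving the Lyapunov equation on symmetric matrices -/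

/-- The equation `Z - N Z Nᵀ = S` has a symmetric solution. -/
theorem exists_sym_solve (N S : M2 F) (hS : Sᵀ = S)
    (h : (1 - N.det) * (1 + N.det - N.trace) * (1 + N.det + N.trace) ≠ 0) :
    ∃ Z : M2 F, Zᵀ = Z ∧ Z - N * Z * Nᵀ = S := by
  set a := N 0 0 with ha
  set b := N 0 1 with hb
  set c := N 1 0 with hc
  set e := N 1 1 with he
  have hdet : N.det = a * e - b * c := by rw [Matrix.det_fin_two]
  have htr : N.trace = a + e := by rw [Matrix.trace_fin_two]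
  let L : Matrix (Fin 3) (Fin 3) F :=
    !![1 - a * a, -(2 * a * b), -(b * b); -(a * c), 1 - (a * e + b * c), -(b * e); -(c * c), -(2 * c * e), 1 - e * e]
  have hL : L.det ≠ 0 := by
    have : L.det = (1 - N.det) * (1 + N.det - N.trace) * (1 + N.det + N.trace) := by
      rw [hdet, htr, Matrix.det_fin_three]
      simp only [L, Matrix.of_apply, Matrix.cons_val', Matrix.cons_val_zero, Matrix.cons_val_one, Matrix.cons_val,
        Matrix.cons_val_fin_one]
      ring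
    rw [this]
    exact h
  have hsym : S 1 0 = S 0 1 := by
    have := congrFun (congrFun hS 0) 1
    simpa using this
  let v : Fin 3 → F := ![S 0 0, S 0 1, S 1 1]
  have hu : IsUnit L.det := isUnit_iff_ne_zero.2 hL
  let w : Fin 3 → F := L⁻¹ *ᵥ v
  have hw : L *ᵥ w = v := by
    simp only [w, Matrix.mulVec_mulVec]
    rw [Matrix.mul_nonsing_inv L hu, Matrix.one_mulVec]
  have h0 := congrFun hw 0
  have h1 := congrFun hw 1
  have h2 := congrFun hw 2
  simp only [L, v, Matrix.mulVec, dotProduct, Fin.sum_univ_three, Matrix.of_apply, Matrix.cons_val', Matrix.cons_val_zero,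
    Matrix.cons_val_one, Matrix.cons_val, Matrix.cons_val_fin_one] at h0 h1 h2
  refine ⟨!![w 0, w 1; w 1, w 2], ?_, ?_⟩
  · apply eq_entries <;> simp
  · apply eq_entries
    · simp [Matrix.mul_apply, Fin.sum_univ_two]
      rw [← h0, ← ha, ← hb]
      ring
    · simp [Matrix.mul_apply, Fin.sum_univ_two]
      rw [← h1, ← ha, ← hb, ← hc, ← he]
      ring
    · simp [Matrix.mul_apply, Fin.sum_univ_two]
      rw [hsym, ← h1, ← ha, ← hb, ← hc, ← he]
      ring
    · simp [Matrix.mul_apply, Fin.sum_univ_two]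
      rw [← h2, ← hc, ← he]
      ring

/-- `U · lev N` is conjugate to `lev N` when `N` has no fixed symmetric form. -/
theorem isConj_up_mul (N : GL (Fin 2) F) (S : M2 F) (hS : Sᵀ = S)
    (h : (1 - (N : M2 F).det) * (1 + (N : M2 F).det - (N : M2 F).trace) * (1 + (N : M2 F).det + (N : M2 F).trace) ≠ 0) :
    IsConj (lev N) (up S hS * lev N) := by
  obtain ⟨Z, hZ, hZS⟩ := exists_sym_solve (N : M2 F) S hS h
  rw [isConj_iff]
  refine ⟨up Z hZ, ?_⟩
  apply Subtype.ext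
  rw [coe_conj_of_mul (up Z hZ) (lev N) ((up S hS * lev N : SP F) : M4 F)]
  have h1 : ((up S hS * lev N : SP F) : M4 F) = ((up S hS : SP F) : M4 F) * ((lev N : SP F) : M4 F) := rfl
  rw [h1, coe_up, coe_up, coe_lev, fromBlocks_multiply, fromBlocks_multiply, fromBlocks_multiply]
  simp only [Matrix.one_mul, Matrix.mul_zero, add_zero, Matrix.zero_mul, zero_add, Matrix.mul_one, Matrix.mul_zero]
  congr 1
  rw [← hZS, sub_mul, sub_eq_add_neg]
  have h2 : (N : M2 F) * Z * (N : M2 F)ᵀ * (((N⁻¹ : GL (Fin 2) F) : M2 F))ᵀ = (N : M2 F) * Z := by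
    rw [Matrix.mul_assoc, transpose_P, Matrix.mul_one]
  rw [h2]
  abel

/-- `lev N · L` is conjugate to `lev N` when `N` has no fixed symmetric form. -/
theorem isConj_mul_low (N : GL (Fin 2) F) (T : M2 F) (hT : Tᵀ = T)
    (h : (1 - (N : M2 F).det) * (1 + (N : M2 F).det - (N : M2 F).trace) * (1 + (N : M2 F).det + (N : M2 F).trace) ≠ 0) :
    IsConj (lev N) (lev N * low T hT) := by
  have h' : (1 - ((N : M2 F)ᵀ).det) * (1 + ((N : M2 F)ᵀ).det - ((N : M2 F)ᵀ).trace) *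
      (1 + ((N : M2 F)ᵀ).det + ((N : M2 F)ᵀ).trace) ≠ 0 := by
    rwa [Matrix.det_transpose, Matrix.trace_transpose]
  obtain ⟨Z, hZ, hZS⟩ := exists_sym_solve ((N : M2 F)ᵀ) (-T) (by rw [transpose_neg, hT]) h'
  rw [isConj_iff]
  refine ⟨low Z hZ, ?_⟩
  apply Subtype.ext
  rw [coe_conj_of_mul (low Z hZ) (lev N) ((lev N * low T hT : SP F) : M4 F)]
  have h1 : ((lev N * low T hT : SP F) : M4 F) = ((lev N : SP F) : M4 F) * ((low T hT : SP F) : M4 F) := rfl
  rw [h1, coe_low, coe_low, coe_lev, fromBlocks_multiply, fromBlocks_multiply, fromBlocks_multiply]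
  simp only [Matrix.one_mul, Matrix.mul_zero, add_zero, Matrix.zero_mul, zero_add, Matrix.mul_one, Matrix.mul_zero]
  congr 1
  have h3 : T + Z = (N : M2 F)ᵀ * Z * (N : M2 F) := by
    have : T = (N : M2 F)ᵀ * Z * ((N : M2 F)ᵀ)ᵀ - Z := by
      rw [← neg_sub, hZS, neg_neg]
    rw [transpose_transpose] at this
    rw [this]
    abel
  have h4 : (((N⁻¹ : GL (Fin 2) F) : M2 F))ᵀ * T + (((N⁻¹ : GL (Fin 2) F) : M2 F))ᵀ * Z =
      (((N⁻¹ : GL (Fin 2) F) : M2 F))ᵀ * (T + Z) := by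
    rw [Matrix.mul_add]
  rw [h4, h3]
  rw [← Matrix.mul_assoc, ← Matrix.mul_assoc, P_transpose, Matrix.one_mul]

/-- Central symmetric elements: the element `-1`. -/
def negOne : SP F := ⟨-1, SymplecticGroup.neg_mem (one_mem _)⟩

theorem coe_negOne : ((negOne : SP F) : M4 F) = -1 := rfl

theorem negOne_mem_center : (negOne : SP F) ∈ Subgroup.center (SP F) := by
  rw [Subgroup.mem_center_iff]
  intro g
  apply Subtype.ext
  show (g : M4 F) * -1 = -1 * (g : M4 F)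
  simp

end Cfsg.Agent.Lib.OreP4
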