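import Mathlib
import Cfsg.Agent.Lib.OreP4.Basic
import Cfsg.Agent.Lib.Classical.Witt.Hyp

/-!
# Factorising an element of `SL₂` as a product of two elements with prescribed characteristic polynomials
-/

set_option autoImplicit false

namespace Cfsg.Agent.Lib.OreP4

open Matrix Cfsg.Agent.Lib.Linalg.GL2Conj

variable {F : Type*} [Field F]

/-- A point on the affine conic. -/
theorem exists_conic [Finite F] (τ d t : F) (hτ : τ ≠ 0) (ht : t ≠ 2) :
    ∃ α β : F, α * α + β * β - t * α * β - τ * α + τ * β + d = 0 := by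
  by_cases hr : ∃ ρ : F, ρ * ρ - t * ρ + 1 = 0
  · obtain ⟨ρ, hρ⟩ := hr
    by_cases hD : (t - ρ) - ρ = 0
    · -- double root: `ρ = -1`
      have hρ2 : (ρ - 1) * (ρ + 1) = 0 := by
        have : t = 2 * ρ := by linear_combination hD
        rw [this] at hρ
        linear_combination -hρ
      have h1 : ρ - 1 ≠ 0 := by
        intro h
        have : ρ = 1 := by linear_combination h
        apply ht
        rw [← sub_eq_zero]
        rw [this] at hD
        linear_combination hD
      have h2 : ρ + 1 = 0 := (mul_eq_zero.1 hρ2).resolve_left h1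
      have hr1 : ρ = -1 := by linear_combination h2
      have ht2 : t = -2 := by
        rw [hr1] at hD
        linear_combination hD
      have h20 : (2 : F) ≠ 0 := by
        intro h
        apply ht
        rw [ht2, h]
        simp
      refine ⟨d / (2 * τ), -(d / (2 * τ)), ?_⟩
      rw [ht2]
      field_simp
      ring
    · set σ := t - ρ with hσ
      have hρσ : ρ * σ = 1 := by
        rw [hσ]
        linear_combination -hρ
      set i := (σ - ρ)⁻¹ with hi
      have hDi : (σ - ρ) * i = 1 := mul_inv_cancel₀ hD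
      set l₁ := τ * (1 - σ) * i with hl₁
      set l₂ := τ * (ρ - 1) * i with hl₂
      set U := 1 - l₂ with hU
      set W := l₁ * l₂ - d - l₁ with hW
      have ha : (σ * U - ρ * W) * i - ρ * ((U - W) * i) = U := by
        linear_combination U * hDi
      have hb : (σ * U - ρ * W) * i - σ * ((U - W) * i) = W := by
        linear_combination W * hDi
      refine ⟨(σ * U - ρ * W) * i, (U - W) * i, ?_⟩
      set α := (σ * U - ρ * W) * i with hα
      set β := (U - W) * i with hβ
      have hprod : α * α + β * β - t * α * β = U * W := by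
        rw [← ha, ← hb]
        have ht' : t = ρ + σ := by rw [hσ]; ring
        rw [ht']
        linear_combination (-(β * β)) * hρσ
      have hlin : -(τ * α) + τ * β = l₁ * U + l₂ * W := by
        have e1 : β - α = ((1 - σ) * U + (ρ - 1) * W) * i := by
          rw [hα, hβ]
          ring
        rw [hl₁, hl₂]
        linear_combination τ * e1
      have hfin : U * W + (l₁ * U + l₂ * W) + d = 0 := by
        rw [hU, hW]
        ring
      linear_combination hprod + hlin + hfin
  · -- anisotropic at infinity: Chevalley-Warning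
    push Not at hr
    let p0 : (Fin 3 → F) →ₗ[F] F := LinearMap.proj 0
    let p1 : (Fin 3 → F) →ₗ[F] F := LinearMap.proj 1
    let p2 : (Fin 3 → F) →ₗ[F] F := LinearMap.proj 2
    let Q : QuadraticForm F (Fin 3 → F) :=
      QuadraticMap.linMulLin p0 p0 + QuadraticMap.linMulLin p1 p1 - t • QuadraticMap.linMulLin p0 p1
        - τ • QuadraticMap.linMulLin p0 p2 + τ • QuadraticMap.linMulLin p1 p2 + d • QuadraticMap.linMulLin p2 p2
    obtain ⟨v, hv, hQ⟩ := Cfsg.Agent.Lib.Classical.Witt.Hyp.exists_singular_of_three_le Q (by simp)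
    have hQ' : v 0 * v 0 + v 1 * v 1 - t * (v 0 * v 1) - τ * (v 0 * v 2) + τ * (v 1 * v 2) + d * (v 2 * v 2) = 0 := by
      simpa [Q, p0, p1, p2, QuadraticMap.linMulLin_apply] using hQ
    by_cases h2 : v 2 = 0
    · exfalso
      rw [h2] at hQ'
      by_cases h1 : v 1 = 0
      · rw [h1] at hQ'
        have h0 : v 0 = 0 := by
          have : v 0 * v 0 = 0 := by linear_combination hQ'
          exact mul_self_eq_zero.1 this
        apply hv
        ext i
        fin_cases i
        · exact h0
        · exact h1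
        · exact h2
      · apply hr (v 0 / v 1)
        field_simp
        linear_combination hQ'
    · refine ⟨v 0 / v 2, v 1 / v 2, ?_⟩
      field_simp
      linear_combination hQ'

/-- The factorisation in companion form. -/
theorem exists_factor_compan [Finite F] (τ d t : F) (hτ : τ ≠ 0) (hd : d ≠ 0) (ht : t ≠ 2) :
    ∃ A₁ A₂ : M2 F, compan t 1 = A₁ * A₂ ∧ A₁.trace = τ ∧ A₁.det = d ∧ A₂.trace = τ / d ∧ A₂.det = 1 / d := by
  obtain ⟨α, β, h⟩ := exists_conic τ d t hτ ht
  set δ := τ - α with hδ
  set γ := τ + β - α * t with hγ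
  have hdet : α * δ - β * γ = d := by
    rw [hδ, hγ]
    linear_combination -h
  refine ⟨!![α, β; γ, δ], d⁻¹ • !![-β, -δ - β * t; α, γ + α * t], ?_, ?_, ?_, ?_, ?_⟩
  · apply eq_entries
    · simp [compan, Matrix.mul_apply, Fin.sum_univ_two]
      ring
    · simp [compan, Matrix.mul_apply, Fin.sum_univ_two]
      field_simp
      linear_combination hdet
    · simp [compan, Matrix.mul_apply, Fin.sum_univ_two]
      field_simp
      linear_combination -hdet
    · simp [compan, Matrix.mul_apply, Fin.sum_univ_two]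
      field_simp
      linear_combination (-t) * hdet
  · simp [Matrix.trace_fin_two, hδ]
  · simpa [Matrix.det_fin_two] using hdet
  · simp [Matrix.trace_fin_two, hγ]
    field_simp
    ring
  · simp [Matrix.det_fin_two]
    field_simp
    linear_combination hdet

/-- The factorisation of an element of `SL₂`. -/
theorem exists_factor [Finite F] (τ d : F) (hτ : τ ≠ 0) (hd : d ≠ 0) (N : M2 F) (hdet : N.det = 1)
    (hg : N = 1 ∨ (¬ IsScalar2 N ∧ N.trace ≠ 2)) :
    ∃ N₁ N₂ : M2 F, N = N₁ * N₂ ∧ N₁.trace = τ ∧ N₁.det = d ∧ N₂.trace = τ / d ∧ N₂.det = 1 / d := by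
  rcases hg with rfl | ⟨hs, ht⟩
  · refine ⟨compan τ d, d⁻¹ • !![τ, d; -1, 0], ?_, by simp, by simp, ?_, ?_⟩
    · apply eq_entries
      · simp [compan, Matrix.mul_apply, Fin.sum_univ_two]
        field_simp
      · simp [compan, Matrix.mul_apply, Fin.sum_univ_two]
      · simp [compan, Matrix.mul_apply, Fin.sum_univ_two]
        ring
      · simp [compan, Matrix.mul_apply, Fin.sum_univ_two]
        field_simp
    · simp [Matrix.trace_fin_two]
      field_simp
    · simp [Matrix.det_fin_two]
      field_simp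
  · obtain ⟨P, hP, hNP⟩ := exists_conj_compan N hs
    rw [hdet] at hNP
    obtain ⟨A₁, A₂, h12, h1t, h1d, h2t, h2d⟩ := exists_factor_compan τ d N.trace hτ hd ht
    have hu : IsUnit P.det := isUnit_iff_ne_zero.2 hP
    have hPi : P * P⁻¹ = 1 := Matrix.mul_nonsing_inv P hu
    have hiP : P⁻¹ * P = 1 := Matrix.nonsing_inv_mul P hu
    have hcj : ∀ A : M2 F, (P * A * P⁻¹).trace = A.trace ∧ (P * A * P⁻¹).det = A.det := by
      intro A
      constructor
      · rw [Matrix.trace_mul_comm, ← Matrix.mul_assoc, hiP, Matrix.one_mul]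
      · rw [Matrix.det_mul, Matrix.det_mul, mul_right_comm, ← Matrix.det_mul, hPi, Matrix.det_one, one_mul]
    refine ⟨P * A₁ * P⁻¹, P * A₂ * P⁻¹, ?_, by rw [(hcj A₁).1, h1t], by rw [(hcj A₁).2, h1d],
      by rw [(hcj A₂).1, h2t], by rw [(hcj A₂).2, h2d]⟩
    calc N = N * (P * P⁻¹) := by rw [hPi, Matrix.mul_one]
      _ = (N * P) * P⁻¹ := by rw [Matrix.mul_assoc]
      _ = P * (A₁ * A₂) * P⁻¹ := by rw [hNP, h12]
      _ = P * A₁ * (P⁻¹ * P) * A₂ * P⁻¹ := by
        rw [hiP, Matrix.mul_one, Matrix.mul_assoc P A₁ A₂]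
      _ = P * A₁ * P⁻¹ * (P * A₂ * P⁻¹) := by
        simp only [Matrix.mul_assoc]

/-- Trace and determinant of the inverse. -/
theorem inv_trace_det (g : GL (Fin 2) F) :
    (((g⁻¹ : GL (Fin 2) F) : M2 F)).trace = (g : M2 F).trace / (g : M2 F).det ∧
      (((g⁻¹ : GL (Fin 2) F) : M2 F)).det = 1 / (g : M2 F).det := by
  have hd : (g : M2 F).det ≠ 0 := ((Matrix.isUnit_iff_isUnit_det _).1 g.isUnit).ne_zero
  rw [Matrix.coe_units_inv, Matrix.inv_def, Ring.inverse_eq_inv']
  constructor
  · simp only [Matrix.trace_smul, Matrix.adjugate_fin_two, Matrix.trace_fin_two]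
    simp
    field_simp
    ring
  · rw [Matrix.det_smul, Matrix.det_adjugate]
    simp
    field_simp

/-- A matrix whose characteristic polynomial has no root is not scalar. -/
theorem not_scalar_of_no_root (X : M2 F) (t d : F) (ht : X.trace = t) (hd : X.det = d)
    (hnr : ∀ r : F, r * r - t * r + d ≠ 0) : ¬ IsScalar2 X := by
  rintro ⟨h01, h10, h00⟩
  apply hnr (X 1 1)
  rw [← ht, ← hd, Matrix.trace_fin_two, Matrix.det_fin_two, h01, h00]
  ring

/-- The reciprocal polynomial has no roots either. -/
theorem no_root_rec (τ d : F) (hd : d ≠ 0) (hnr : ∀ r : F, r * r - τ * r + d ≠ 0) (r : F) :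
    r * r - (τ / d) * r + 1 / d ≠ 0 := by
  intro h
  have hr : r ≠ 0 := by
    rintro rfl
    have : 1 / d = 0 := by simpa using h
    exact (one_div_ne_zero hd) this
  apply hnr r⁻¹
  field_simp
  field_simp at h
  linear_combination h

end Cfsg.Agent.Lib.OreP4
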