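import Mathlib
import Cfsg.Agent.Lib.OreP4.Conic

/-!
# Factorising elements of the big cell of `Sp₄` as products of two conjugates of a Levi element
-/

set_option autoImplicit false

namespace Cfsg.Agent.Lib.OreP4

open Matrix Cfsg.Agent.Lib.Linalg.GL2Conj

variable {F : Type*} [Field F]

/-- Block relations from the matrix form. -/
theorem rel_of_coe (y : SP F) (A B C D : M2 F) (hy : (y : M4 F) = fromBlocks A B C D) :
    Aᵀ * C = Cᵀ * A ∧ Bᵀ * D = Dᵀ * B ∧ Aᵀ * D - Cᵀ * B = 1 ∧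
    A * Bᵀ = B * Aᵀ ∧ C * Dᵀ = D * Cᵀ ∧ A * Dᵀ - B * Cᵀ = 1 := by
  have h1 := y.2
  rw [hy] at h1
  obtain ⟨a, b, c⟩ := SymplecticGroup.fromBlocks_mem_iff.1 h1
  have h2 := SymplecticGroup.transpose_mem y.2
  rw [hy, fromBlocks_transpose] at h2
  obtain ⟨d, e, f⟩ := SymplecticGroup.fromBlocks_mem_iff.1 h2
  simp only [transpose_transpose] at d e f
  exact ⟨a, b, c, d, e, f⟩

/-- An element of the big cell with good lower right block is a product of two conjugates of `lev M`. -/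
theorem factor_of_good [Finite F] (M : GL (Fin 2) F) (hτ : (M : M2 F).trace ≠ 0) (hd1 : (M : M2 F).det ≠ 1)
    (hnr : ∀ r : F, r * r - (M : M2 F).trace * r + (M : M2 F).det ≠ 0)
    (y : SP F) (A B C D : M2 F) (hy : (y : M4 F) = fromBlocks A B C D)
    (hdD : D.det = 1) (hg : D = 1 ∨ (¬ IsScalar2 D ∧ D.trace ≠ 2)) :
    ∃ a b : SP F, y = (a * lev M * a⁻¹) * (b * lev M * b⁻¹) := by
  obtain ⟨-, h1, -, -, h2, h3⟩ := rel_of_coe y A B C D hy
  set τ := (M : M2 F).trace with hτdef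
  set d := (M : M2 F).det with hddef
  have hd0 : d ≠ 0 := ((Matrix.isUnit_iff_isUnit_det _).1 M.isUnit).ne_zero
  have hu : IsUnit D.det := by rw [hdD]; exact isUnit_one
  set Di := D⁻¹ with hDidef
  have hDi : D * Di = 1 := Matrix.mul_nonsing_inv D hu
  have hiD : Di * D = 1 := Matrix.nonsing_inv_mul D hu
  have hDadj : Di = D.adjugate := by
    rw [hDidef, Matrix.inv_def, hdD]
    simp
  set N := Diᵀ with hNdef
  have hNent : N 0 0 = D 1 1 ∧ N 0 1 = - D 1 0 ∧ N 1 0 = - D 0 1 ∧ N 1 1 = D 0 0 := by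
    rw [hNdef, hDadj, Matrix.adjugate_fin_two]
    simp
  have hNdet : N.det = 1 := by
    rw [Matrix.det_fin_two, hNent.1, hNent.2.1, hNent.2.2.1, hNent.2.2.2]
    rw [Matrix.det_fin_two] at hdD
    linear_combination hdD
  have hNg : N = 1 ∨ (¬ IsScalar2 N ∧ N.trace ≠ 2) := by
    rcases hg with rfl | ⟨hs, ht⟩
    · left
      rw [hNdef, hDidef]
      simp
    · right
      constructor
      · rintro ⟨h01, h10, h00⟩
        apply hs
        rw [hNent.2.1] at h01
        rw [hNent.2.2.1] at h10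
        rw [hNent.1, hNent.2.2.2] at h00
        exact ⟨by simpa using h10, by simpa using h01, h00.symm⟩
      · rw [Matrix.trace_fin_two, hNent.1, hNent.2.2.2]
        rw [Matrix.trace_fin_two] at ht
        rwa [add_comm]
  obtain ⟨N₁, N₂, hN, h1t, h1d, h2t, h2d⟩ := exists_factor τ d hτ hd0 N hNdet hNg
  have hd1' : N₁.det ≠ 0 := by rwa [h1d]
  have hd2' : N₂.det ≠ 0 := by rw [h2d]; exact one_div_ne_zero hd0
  let g₁ : GL (Fin 2) F := GeneralLinearGroup.mkOfDetNeZero N₁ hd1'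
  let g₂ : GL (Fin 2) F := GeneralLinearGroup.mkOfDetNeZero N₂ hd2'
  have hg₁ : (g₁ : M2 F) = N₁ := rfl
  have hg₂ : (g₂ : M2 F) = N₂ := rfl
  -- the block factorisation
  have hUsym : (B * Di)ᵀ = B * Di := by
    rw [transpose_mul]
    calc Diᵀ * Bᵀ = Diᵀ * Bᵀ * (D * Di) := by rw [hDi, Matrix.mul_one]
      _ = Diᵀ * (Bᵀ * D) * Di := by simp only [Matrix.mul_assoc]
      _ = Diᵀ * (Dᵀ * B) * Di := by rw [h1]
      _ = (D * Di)ᵀ * B * Di := by rw [transpose_mul]; simp only [Matrix.mul_assoc]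
      _ = B * Di := by rw [hDi]; simp
  have hLsym : (Di * C)ᵀ = Di * C := by
    rw [transpose_mul]
    have hDDi : Dᵀ * Diᵀ = 1 := by rw [← transpose_mul, hiD]; simp
    calc Cᵀ * Diᵀ = (Di * D) * Cᵀ * Diᵀ := by rw [hiD, Matrix.one_mul]
      _ = Di * (D * Cᵀ) * Diᵀ := by simp only [Matrix.mul_assoc]
      _ = Di * (C * Dᵀ) * Diᵀ := by rw [h2]
      _ = Di * C * (Dᵀ * Diᵀ) := by simp only [Matrix.mul_assoc]
      _ = Di * C := by rw [hDDi, Matrix.mul_one]
  have hA : A = Diᵀ + B * (Di * C) := by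
    have hDDi : Dᵀ * Diᵀ = 1 := by rw [← transpose_mul, hiD]; simp
    have h4 : A * Dᵀ = 1 + B * Cᵀ := by rw [← h3]; abel
    have h5 : Cᵀ * Diᵀ = Di * C := by rw [← hLsym, transpose_mul]
    calc A = A * (Dᵀ * Diᵀ) := by rw [hDDi, Matrix.mul_one]
      _ = (A * Dᵀ) * Diᵀ := by rw [Matrix.mul_assoc]
      _ = (1 + B * Cᵀ) * Diᵀ := by rw [h4]
      _ = Diᵀ + B * (Cᵀ * Diᵀ) := by rw [Matrix.add_mul, Matrix.one_mul, Matrix.mul_assoc]
      _ = Diᵀ + B * (Di * C) := by rw [h5]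
  have hinv : (((g₁ * g₂)⁻¹ : GL (Fin 2) F) : M2 F) = Dᵀ := by
    apply Units.inv_eq_of_mul_eq_one_right
    rw [Units.val_mul, hg₁, hg₂, ← hN, hNdef, ← transpose_mul, hDi]
    simp
  have hinv' : ((((g₁ * g₂)⁻¹ : GL (Fin 2) F) : M2 F))ᵀ = D := by
    rw [hinv, transpose_transpose]
  have hfac : y = (up (B * Di) hUsym * lev g₁) * (lev g₂ * low (Di * C) hLsym) := by
    have h5 : (up (B * Di) hUsym * lev g₁) * (lev g₂ * low (Di * C) hLsym) =
        up (B * Di) hUsym * lev (g₁ * g₂) * low (Di * C) hLsym := by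
      rw [map_mul]
      group
    rw [h5]
    apply Subtype.ext
    show (y : M4 F) = ((up (B * Di) hUsym : SP F) : M4 F) * ((lev (g₁ * g₂) : SP F) : M4 F) * ((low (Di * C) hLsym : SP F) : M4 F)
    rw [hy, coe_up, coe_low, coe_lev, hinv', Units.val_mul, hg₁, hg₂, ← hN, fromBlocks_multiply, fromBlocks_multiply]
    simp only [Matrix.one_mul, Matrix.mul_zero, add_zero, Matrix.zero_mul, zero_add, Matrix.mul_one]
    have e1 : B * Di * D = B := by rw [Matrix.mul_assoc, hiD, Matrix.mul_one]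
    have e2 : D * (Di * C) = C := by rw [← Matrix.mul_assoc, hDi, Matrix.one_mul]
    rw [e1, e2, ← hA]
  -- conjugacy
  have hfac1 : (1 - d) * (1 + d - τ) * (1 + d + τ) ≠ 0 := by
    have a1 : 1 - d ≠ 0 := fun h => hd1 (by linear_combination -h)
    have a2 : 1 + d - τ ≠ 0 := fun h => hnr 1 (by linear_combination h)
    have a3 : 1 + d + τ ≠ 0 := fun h => hnr (-1) (by linear_combination h)
    exact mul_ne_zero (mul_ne_zero a1 a2) a3
  have hfac2 : (1 - 1 / d) * (1 + 1 / d - τ / d) * (1 + 1 / d + τ / d) ≠ 0 := by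
    have a1 : 1 - 1 / d ≠ 0 := by
      intro h
      apply hd1
      field_simp at h
      linear_combination h
    have a2 : 1 + 1 / d - τ / d ≠ 0 := by
      intro h
      apply hnr 1
      field_simp at h
      linear_combination h
    have a3 : 1 + 1 / d + τ / d ≠ 0 := by
      intro h
      apply hnr (-1)
      field_simp at h
      linear_combination h
    exact mul_ne_zero (mul_ne_zero a1 a2) a3
  have hc1 : IsConj (lev g₁) (up (B * Di) hUsym * lev g₁) := by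
    apply isConj_up_mul
    rw [hg₁, h1d, h1t]
    exact hfac1
  have hc2 : IsConj (lev g₂) (lev g₂ * low (Di * C) hLsym) := by
    apply isConj_mul_low
    rw [hg₂, h2d, h2t]
    exact hfac2
  have hnrM : ¬ IsScalar2 (M : M2 F) := not_scalar_of_no_root _ τ d rfl rfl hnr
  have hnr1 : ¬ IsScalar2 (g₁ : M2 F) := not_scalar_of_no_root _ τ d h1t h1d hnr
  have hrec := no_root_rec τ d hd0 hnr
  have hnr2 : ¬ IsScalar2 (g₂ : M2 F) := not_scalar_of_no_root _ (τ / d) (1 / d) h2t h2d hrec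
  obtain ⟨hit, hid⟩ := inv_trace_det M
  have hgt : ((gltr M : GL (Fin 2) F) : M2 F).trace = τ / d := by
    rw [coe_gltr, Matrix.trace_transpose, hit]
  have hgd : ((gltr M : GL (Fin 2) F) : M2 F).det = 1 / d := by
    rw [coe_gltr, Matrix.det_transpose, hid]
  have hnr3 : ¬ IsScalar2 ((gltr M : GL (Fin 2) F) : M2 F) := not_scalar_of_no_root _ (τ / d) (1 / d) hgt hgd hrec
  have hM1 : IsConj M g₁ := isConj_of_trace_det_eq hnrM hnr1 (by rw [hg₁, h1t]) (by rw [hg₁, h1d])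
  have hM2 : IsConj (gltr M) g₂ := isConj_of_trace_det_eq hnr3 hnr2 (by rw [hg₂, h2t, hgt]) (by rw [hg₂, h2d, hgd])
  have hL1 : IsConj (lev M) (up (B * Di) hUsym * lev g₁) := (MonoidHom.map_isConj lev hM1).trans hc1
  have hL2 : IsConj (lev M) (lev g₂ * low (Di * C) hLsym) :=
    (isConj_lev_gltr M).trans ((MonoidHom.map_isConj lev hM2).trans hc2)
  obtain ⟨a, ha⟩ := isConj_iff.1 hL1
  obtain ⟨b, hb⟩ := isConj_iff.1 hL2
  exact ⟨a, b, by rw [ha, hb]; exact hfac⟩

end Cfsg.Agent.Lib.OreP4
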