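import Mathlib
import Cfsg.Agent.Lib.OreP4.Factor

/-!
# Moving a non-central element of `Sp₄` so that its lower right block has determinant one
-/

set_option autoImplicit false

namespace Cfsg.Agent.Lib.OreP4

open Matrix Cfsg.Agent.Lib.Linalg.GL2Conj

variable {F : Type*} [Field F]

/-- Conjugating by `J`. -/
theorem coe_conj_jj (y : SP F) (A B C D : M2 F) (hy : (y : M4 F) = fromBlocks A B C D) :
    ((jj * y * jj⁻¹ : SP F) : M4 F) = fromBlocks D (-C) (-B) A := by
  apply coe_conj_of_mul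
  rw [coe_jj, hy, fromBlocks_multiply, fromBlocks_multiply]
  simp

/-- Conjugating by an upper unipotent element. -/
theorem coe_conj_up (y : SP F) (A D : M2 F) (hy : (y : M4 F) = fromBlocks A 0 0 D) (Z : M2 F) (hZ : Zᵀ = Z) :
    ((up Z hZ * y * (up Z hZ)⁻¹ : SP F) : M4 F) = fromBlocks A (Z * D - A * Z) 0 D := by
  apply coe_conj_of_mul
  rw [coe_up, hy, fromBlocks_multiply, fromBlocks_multiply]
  simp

/-- Conjugating by a lower unipotent element. -/
theorem coe_conj_low (y : SP F) (A B C D : M2 F) (hy : (y : M4 F) = fromBlocks A B C D) (S : M2 F) (hS : Sᵀ = S) :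
    ((low S hS * y * (low S hS)⁻¹ : SP F) : M4 F) =
      fromBlocks (A - B * S) B (S * A + C - (S * B + D) * S) (S * B + D) := by
  apply coe_conj_of_mul
  rw [coe_low, hy, fromBlocks_multiply, fromBlocks_multiply]
  simp

/-- Conjugating by a Levi element. -/
theorem coe_conj_lev (y : SP F) (A B C D : M2 F) (hy : (y : M4 F) = fromBlocks A B C D) (h : GL (Fin 2) F) :
    ((lev h * y * (lev h)⁻¹ : SP F) : M4 F) =
      fromBlocks ((h : M2 F) * A * ((h⁻¹ : GL (Fin 2) F) : M2 F)) ((h : M2 F) * B * (h : M2 F)ᵀ)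
        (((h⁻¹ : GL (Fin 2) F) : M2 F)ᵀ * C * ((h⁻¹ : GL (Fin 2) F) : M2 F))
        (((h⁻¹ : GL (Fin 2) F) : M2 F)ᵀ * D * (h : M2 F)ᵀ) := by
  apply coe_conj_of_mul
  rw [coe_lev, hy, fromBlocks_multiply, fromBlocks_multiply]
  simp only [Matrix.mul_zero, add_zero, Matrix.zero_mul, zero_add]
  have e1 : (h : M2 F) * A * ((h⁻¹ : GL (Fin 2) F) : M2 F) * (h : M2 F) = (h : M2 F) * A := by
    rw [Matrix.mul_assoc, ← Units.val_mul, inv_mul_cancel]
    simp
  have e2 : (h : M2 F) * B * (h : M2 F)ᵀ * ((h⁻¹ : GL (Fin 2) F) : M2 F)ᵀ = (h : M2 F) * B := by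
    rw [Matrix.mul_assoc, transpose_P, Matrix.mul_one]
  have e3 : ((h⁻¹ : GL (Fin 2) F) : M2 F)ᵀ * C * ((h⁻¹ : GL (Fin 2) F) : M2 F) * (h : M2 F) =
      ((h⁻¹ : GL (Fin 2) F) : M2 F)ᵀ * C := by
    rw [Matrix.mul_assoc, ← Units.val_mul, inv_mul_cancel]
    simp
  have e4 : ((h⁻¹ : GL (Fin 2) F) : M2 F)ᵀ * D * (h : M2 F)ᵀ * ((h⁻¹ : GL (Fin 2) F) : M2 F)ᵀ =
      ((h⁻¹ : GL (Fin 2) F) : M2 F)ᵀ * D := by
    rw [Matrix.mul_assoc, transpose_P, Matrix.mul_one]
  rw [e1, e2, e3, e4]

/-- A central test: block scalar elements are central. -/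
theorem mem_center_of_scalar (y : SP F) (c : F) (hy : (y : M4 F) = c • 1) : y ∈ Subgroup.center (SP F) := by
  rw [Subgroup.mem_center_iff]
  intro g
  apply Subtype.ext
  show (g : M4 F) * (y : M4 F) = (y : M4 F) * (g : M4 F)
  rw [hy]
  simp

/-- Step one: after conjugation the upper right block is nonzero. -/
theorem exists_B_ne (y : SP F) (hy : y ∉ Subgroup.center (SP F)) :
    ∃ y₁ : SP F, IsConj y y₁ ∧ ∃ A B C D : M2 F, (y₁ : M4 F) = fromBlocks A B C D ∧ B ≠ 0 := by
  obtain ⟨A, B, C, D, hb, -⟩ := exists_blocks y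
  by_cases hB : B = 0
  · by_cases hC : C = 0
    · subst hB hC
      by_cases hZ : ∃ Z : M2 F, Zᵀ = Z ∧ Z * D - A * Z ≠ 0
      · obtain ⟨Z, hZs, hZ⟩ := hZ
        exact ⟨up Z hZs * y * (up Z hZs)⁻¹, isConj_iff.2 ⟨_, rfl⟩, _, _, _, _, coe_conj_up y A D hb Z hZs, hZ⟩
      · exfalso
        push Not at hZ
        apply hy
        have h1 := hZ 1 (by simp)
        have hDA : D = A := by
          simpa [sub_eq_zero] using h1
        subst hDA
        have h2 := hZ !![1, 0; 0, 0] (by apply eq_entries <;> simp)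
        have h3 := hZ !![0, 1; 1, 0] (by apply eq_entries <;> simp)
        have h201 := congrFun (congrFun h2 0) 1
        have h210 := congrFun (congrFun h2 1) 0
        have h301 := congrFun (congrFun h3 0) 1
        simp only [Matrix.sub_apply, Matrix.mul_apply, Fin.sum_univ_two, Matrix.zero_apply] at h201 h210 h301
        simp at h201 h210 h301
        apply mem_center_of_scalar y (D 0 0)
        rw [hb]
        have hD : D = (D 0 0) • (1 : M2 F) := by
          apply eq_entries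
          · simp
          · simp
            exact h201
          · simp
            simpa using h210
          · simp
            linear_combination h301
        have : (D 0 0) • (1 : M4 F) = fromBlocks ((D 0 0) • (1 : M2 F)) 0 0 ((D 0 0) • (1 : M2 F)) := by
          rw [← fromBlocks_one, fromBlocks_smul]
          simp
        rw [this, ← hD]
    · refine ⟨jj * y * jj⁻¹, isConj_iff.2 ⟨_, rfl⟩, _, _, _, _, coe_conj_jj y A B C D hb, ?_⟩
      simpa using hC
  · exact ⟨y, IsConj.refl _, A, B, C, D, hb, hB⟩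

/-- Solve `S B` in the second column when the first column of `B` vanishes. -/
theorem exists_S_column (B : M2 F) (h00 : B 0 0 = 0) (h10 : B 1 0 = 0) (hB : B ≠ 0) (w₀ w₁ : F) :
    ∃ S : M2 F, Sᵀ = S ∧ (S * B) 0 0 = 0 ∧ (S * B) 1 0 = 0 ∧ (S * B) 0 1 = w₀ ∧ (S * B) 1 1 = w₁ := by
  by_cases hb : B 0 1 = 0
  · have hb2 : B 1 1 ≠ 0 := by
      intro h
      apply hB
      apply eq_entries <;> simp [h00, h10, hb, h]
    refine ⟨!![0, w₀ / B 1 1; w₀ / B 1 1, w₁ / B 1 1], ?_, ?_, ?_, ?_, ?_⟩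
    · apply eq_entries <;> simp
    · simp [Matrix.mul_apply, Fin.sum_univ_two, h00, h10]
    · simp [Matrix.mul_apply, Fin.sum_univ_two, h00, h10]
    · simp [Matrix.mul_apply, Fin.sum_univ_two, hb]
      field_simp
    · simp [Matrix.mul_apply, Fin.sum_univ_two, hb]
      field_simp
  · refine ⟨!![(w₀ - w₁ / B 0 1 * B 1 1) / B 0 1, w₁ / B 0 1; w₁ / B 0 1, 0], ?_, ?_, ?_, ?_, ?_⟩
    · apply eq_entries <;> simp
    · simp [Matrix.mul_apply, Fin.sum_univ_two, h00, h10]
    · simp [Matrix.mul_apply, Fin.sum_univ_two, h00, h10]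
    · simp [Matrix.mul_apply, Fin.sum_univ_two]
      field_simp
      ring
    · simp [Matrix.mul_apply, Fin.sum_univ_two]
      field_simp

/-- The rank one case in normal form. -/
theorem good_of_first_col (y : SP F) (A B C D : M2 F) (hy : (y : M4 F) = fromBlocks A B C D)
    (h00 : B 0 0 = 0) (h10 : B 1 0 = 0) (hB : B ≠ 0) :
    ∃ y₁ : SP F, IsConj y y₁ ∧ ∃ A' B' C' D' : M2 F, (y₁ : M4 F) = fromBlocks A' B' C' D' ∧ D'.det = 1 ∧
      ((2 : F) = 0 → D' = 1 ∨ D'.trace ≠ 0) := by
  obtain ⟨-, -, h3, -, -, -⟩ := rel_of_coe y A B C D hy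
  have hcol : D 0 0 ≠ 0 ∨ D 1 0 ≠ 0 := by
    by_contra hc
    push Not at hc
    have := congrFun (congrFun h3 0) 0
    simp [Matrix.mul_apply, Fin.sum_univ_two, hc.1, hc.2, h00, h10] at this
  -- the target second column
  obtain ⟨h₁, h₂, hdet, hgood⟩ : ∃ h₁ h₂ : F, D 0 0 * h₂ - D 1 0 * h₁ = 1 ∧
      ((2 : F) = 0 → (D 1 0 = 0 ∧ D 0 0 = 1 ∧ h₁ = 0 ∧ h₂ = 1) ∨ D 0 0 + h₂ ≠ 0) := by
    by_cases hg : D 1 0 = 0
    · have hg1 : D 0 0 ≠ 0 := hcol.resolve_right (by simpa using hg)
      refine ⟨0, (D 0 0)⁻¹, by rw [hg]; field_simp; ring, ?_⟩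
      intro h2
      by_cases h1 : D 0 0 = 1
      · left
        exact ⟨hg, h1, rfl, by rw [h1]; simp⟩
      · right
        intro h
        apply h1
        have h4 : (D 0 0 - 1) * (D 0 0 - 1) = 0 := by
          field_simp at h
          linear_combination h - D 0 0 * h2
        have := mul_self_eq_zero.1 h4
        linear_combination this
    · refine ⟨(D 0 0 * (1 - D 0 0) - 1) / D 1 0, 1 - D 0 0, ?_, ?_⟩
      · field_simp
        ring
      · intro h2
        right
        intro h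
        have : (1 : F) = 0 := by linear_combination h
        exact one_ne_zero this
  obtain ⟨S, hS, s00, s10, s01, s11⟩ := exists_S_column B h00 h10 hB (h₁ - D 0 1) (h₂ - D 1 1)
  refine ⟨low S hS * y * (low S hS)⁻¹, isConj_iff.2 ⟨_, rfl⟩, _, _, _, _, coe_conj_low y A B C D hy S hS, ?_, ?_⟩
  · rw [Matrix.det_fin_two]
    simp only [Matrix.add_apply, s00, s10, s01, s11]
    linear_combination hdet
  · intro h2
    rcases hgood h2 with ⟨a1, a2, a3, a4⟩ | h
    · left
      apply eq_entries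
      · simp [Matrix.add_apply, s00, a2]
      · simp [Matrix.add_apply, s01, a3]
      · simp [Matrix.add_apply, s10, a1]
      · simp [Matrix.add_apply, s11, a4]
    · right
      rw [Matrix.trace_fin_two]
      simp only [Matrix.add_apply, s00, s11]
      intro h'
      apply h
      linear_combination h'

/-- The rank one case. -/
theorem good_of_rank_one (y : SP F) (A B C D : M2 F) (hy : (y : M4 F) = fromBlocks A B C D)
    (hB : B ≠ 0) (hdet : B.det = 0) :
    ∃ y₁ : SP F, IsConj y y₁ ∧ ∃ A' B' C' D' : M2 F, (y₁ : M4 F) = fromBlocks A' B' C' D' ∧ D'.det = 1 ∧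
      ((2 : F) = 0 → D' = 1 ∨ D'.trace ≠ 0) := by
  obtain ⟨z, hz, hBz⟩ := Matrix.exists_mulVec_eq_zero_iff.2 hdet
  obtain ⟨h, hh0, hh1⟩ : ∃ h : GL (Fin 2) F, (h : M2 F) 0 0 = z 0 ∧ (h : M2 F) 0 1 = z 1 := by
    by_cases h0 : z 0 = 0
    · have h1 : z 1 ≠ 0 := by
        intro h1
        apply hz
        ext i
        fin_cases i
        · exact h0
        · exact h1
      have hd : (!![z 0, z 1; 1, 0] : M2 F).det ≠ 0 := by
        simp [Matrix.det_fin_two, h1]
      exact ⟨GeneralLinearGroup.mkOfDetNeZero _ hd, rfl, rfl⟩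
    · have hd : (!![z 0, z 1; 0, 1] : M2 F).det ≠ 0 := by
        simp [Matrix.det_fin_two, h0]
      exact ⟨GeneralLinearGroup.mkOfDetNeZero _ hd, rfl, rfl⟩
  have hBz0 := congrFun hBz 0
  have hBz1 := congrFun hBz 1
  simp [Matrix.mulVec, dotProduct, Fin.sum_univ_two] at hBz0 hBz1
  have hB' : ((h : M2 F) * B * (h : M2 F)ᵀ) 0 0 = 0 ∧ ((h : M2 F) * B * (h : M2 F)ᵀ) 1 0 = 0 := by
    simp only [Matrix.mul_apply, Fin.sum_univ_two, Matrix.transpose_apply, hh0, hh1]
    constructor
    · linear_combination z 0 * hBz0 + z 1 * hBz1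
    · linear_combination (h : M2 F) 1 0 * hBz0 + (h : M2 F) 1 1 * hBz1
  have hne : (h : M2 F) * B * (h : M2 F)ᵀ ≠ 0 := by
    intro h0
    apply hB
    have h1 : ((h⁻¹ : GL (Fin 2) F) : M2 F) * ((h : M2 F) * B * (h : M2 F)ᵀ) * ((h⁻¹ : GL (Fin 2) F) : M2 F)ᵀ = B := by
      have e1 : ((h⁻¹ : GL (Fin 2) F) : M2 F) * (h : M2 F) = 1 := by
        rw [← Units.val_mul, inv_mul_cancel]
        simp
      calc _ = (((h⁻¹ : GL (Fin 2) F) : M2 F) * (h : M2 F)) * B * ((h : M2 F)ᵀ * ((h⁻¹ : GL (Fin 2) F) : M2 F)ᵀ) := by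
            simp only [Matrix.mul_assoc]
        _ = B := by rw [e1, transpose_P, Matrix.one_mul, Matrix.mul_one]
    rw [← h1, h0]
    simp
  obtain ⟨y₂, hc, rest⟩ := good_of_first_col (lev h * y * (lev h)⁻¹) _ _ _ _ (coe_conj_lev y A B C D hy h) hB'.1 hB'.2 hne
  exact ⟨y₂, (isConj_iff.2 ⟨_, rfl⟩).trans hc, rest⟩

/-- The invertible case. -/
theorem good_of_rank_two (y : SP F) (A B C D : M2 F) (hy : (y : M4 F) = fromBlocks A B C D)
    (hdet : B.det ≠ 0) (hu : ∃ u : F, u ≠ 0 ∧ u ≠ 1) :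
    ∃ y₁ : SP F, IsConj y y₁ ∧ ∃ A' B' C' D' : M2 F, (y₁ : M4 F) = fromBlocks A' B' C' D' ∧ D'.det = 1 ∧
      ((2 : F) = 0 → D' = 1 ∨ D'.trace ≠ 0) := by
  obtain ⟨-, h1, -, -, -, -⟩ := rel_of_coe y A B C D hy
  have hunit : IsUnit B.det := isUnit_iff_ne_zero.2 hdet
  set Bi := B⁻¹ with hBi
  have hBBi : B * Bi = 1 := Matrix.mul_nonsing_inv B hunit
  have hBiB : Bi * B = 1 := Matrix.nonsing_inv_mul B hunit
  have hT : (D * Bi)ᵀ = D * Bi := by
    rw [transpose_mul]
    have e : Biᵀ * Bᵀ = 1 := by rw [← transpose_mul, hBBi]; simp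
    calc Biᵀ * Dᵀ = Biᵀ * Dᵀ * (B * Bi) := by rw [hBBi, Matrix.mul_one]
      _ = Biᵀ * (Dᵀ * B) * Bi := by simp only [Matrix.mul_assoc]
      _ = Biᵀ * (Bᵀ * D) * Bi := by rw [h1]
      _ = (Biᵀ * Bᵀ) * D * Bi := by simp only [Matrix.mul_assoc]
      _ = D * Bi := by rw [e, Matrix.one_mul]
  -- the symmetric matrix `R` with `R B` good
  obtain ⟨R, hR, hRdet, hRg⟩ : ∃ R : M2 F, Rᵀ = R ∧ (R * B).det = 1 ∧
      ((2 : F) = 0 → R * B = 1 ∨ (R * B).trace ≠ 0) := by
    by_cases hs : Bᵀ = B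
    · refine ⟨Bi, ?_, ?_, fun _ => Or.inl hBiB⟩
      · rw [hBi, Matrix.transpose_nonsing_inv, hs]
      · rw [hBiB, Matrix.det_one]
    · have hs' : B 0 1 ≠ B 1 0 := by
        intro h
        apply hs
        apply eq_entries
        · simp
        · simp [h]
        · simp [h]
        · simp
      set c := (B.det)⁻¹ with hc
      have hcd : c * B.det = 1 := inv_mul_cancel₀ hdet
      have hex : ∃ s : F, (2 : F) = 0 → B 0 0 + s * (B 1 0 + B 0 1) + (c + s * s) * B 1 1 ≠ 0 := by
        by_cases h2 : (2 : F) = 0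
        · by_contra hall
          push Not at hall
          obtain ⟨u, hu0, hu1⟩ := hu
          have p0 := (hall 0).2
          have p1 := (hall 1).2
          have pu := (hall u).2
          have e1 : (B 1 0 + B 0 1) + B 1 1 = 0 := by linear_combination p1 - p0
          have e2 : u * ((B 1 0 + B 0 1) + u * B 1 1) = 0 := by linear_combination pu - p0
          have e3 : (B 1 0 + B 0 1) + u * B 1 1 = 0 := (mul_eq_zero.1 e2).resolve_left hu0
          have e4 : (u - 1) * B 1 1 = 0 := by linear_combination e3 - e1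
          have e5 : B 1 1 = 0 := (mul_eq_zero.1 e4).resolve_left (sub_ne_zero.2 hu1)
          apply hs'
          rw [e5] at e1
          linear_combination e1 - B 1 0 * h2
        · exact ⟨0, fun h => absurd h h2⟩
      obtain ⟨s, hs1⟩ := hex
      refine ⟨!![1, s; s, c + s * s], ?_, ?_, ?_⟩
      · apply eq_entries <;> simp
      · rw [Matrix.det_mul]
        have : (!![1, s; s, c + s * s] : M2 F).det = c := by
          simp [Matrix.det_fin_two]
        rw [this, hcd]
      · intro h2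
        right
        have := hs1 h2
        intro h3
        apply this
        rw [Matrix.trace_fin_two] at h3
        simp [Matrix.mul_apply, Fin.sum_univ_two] at h3
        linear_combination h3
  have hS : (R - D * Bi)ᵀ = R - D * Bi := by rw [transpose_sub, hR, hT]
  have hD' : (R - D * Bi) * B + D = R * B := by
    rw [sub_mul, Matrix.mul_assoc, hBiB, Matrix.mul_one]
    abel
  refine ⟨low _ hS * y * (low _ hS)⁻¹, isConj_iff.2 ⟨_, rfl⟩, _, _, _, _, coe_conj_low y A B C D hy _ hS, ?_, ?_⟩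
  · rw [hD']
    exact hRdet
  · rw [hD']
    exact hRg

/-- Every non-central element has a conjugate with a good lower right block. -/
theorem exists_good (y : SP F) (hy : y ∉ Subgroup.center (SP F)) (hu : ∃ u : F, u ≠ 0 ∧ u ≠ 1) :
    ∃ y₁ : SP F, IsConj y y₁ ∧ ∃ A' B' C' D' : M2 F, (y₁ : M4 F) = fromBlocks A' B' C' D' ∧ D'.det = 1 ∧
      ((2 : F) = 0 → D' = 1 ∨ D'.trace ≠ 0) := by
  obtain ⟨y₁, hc, A, B, C, D, hb, hB⟩ := exists_B_ne y hy
  by_cases hdet : B.det = 0
  · obtain ⟨y₂, hc2, rest⟩ := good_of_rank_one y₁ A B C D hb hB hdet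
    exact ⟨y₂, hc.trans hc2, rest⟩
  · obtain ⟨y₂, hc2, rest⟩ := good_of_rank_two y₁ A B C D hb hdet hu
    exact ⟨y₂, hc.trans hc2, rest⟩

/-- After a sign, the lower right block is good. -/
theorem good_sign (D : M2 F) (hd : D.det = 1) (h : (2 : F) = 0 → D = 1 ∨ D.trace ≠ 0) :
    (D = 1 ∨ (¬ IsScalar2 D ∧ D.trace ≠ 2)) ∨ (-D = 1 ∨ (¬ IsScalar2 (-D) ∧ (-D).trace ≠ 2)) := by
  by_cases hs : IsScalar2 D
  · obtain ⟨h01, h10, h00⟩ := hs
    have hsq : D 1 1 * D 1 1 = 1 := by
      rw [Matrix.det_fin_two, h01, h00] at hd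
      linear_combination hd
    have hf : (D 1 1 - 1) * (D 1 1 + 1) = 0 := by linear_combination hsq
    rcases mul_eq_zero.1 hf with h1 | h1
    · left
      left
      apply eq_entries
      · simp [h00]
        linear_combination h1
      · simp [h01]
      · simp [h10]
      · simp
        linear_combination h1
    · right
      left
      apply eq_entries
      · simp [h00]
        linear_combination -h1
      · simp [h01]
      · simp [h10]
      · simp
        linear_combination -h1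
  · by_cases ht : D.trace = 2
    · right
      right
      by_cases h2 : (2 : F) = 0
      · exfalso
        rw [h2] at ht
        rcases h h2 with h1 | h1
        · apply hs
          rw [h1]
          simp [IsScalar2]
        · exact h1 ht
      · constructor
        · rintro ⟨h01, h10, h00⟩
          apply hs
          refine ⟨by simpa using h01, by simpa using h10, by simpa using h00⟩
        · rw [Matrix.trace_neg, ht]
          intro h3
          apply h2
          have : (2 : F) * 2 = 0 := by linear_combination -h3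
          exact (mul_self_eq_zero.1 this)
    · left
      right
      exact ⟨hs, ht⟩

end Cfsg.Agent.Lib.OreP4
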