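import Mathlib
import Cfsg.Prelude.Def_Classical
import Cfsg.Agent.Lib.OreP4.Good

/-!
# A semisimple class of `PSp₄(q)` whose square covers all non-identity elements
-/

set_option autoImplicit false

namespace Cfsg.Agent.Lib.OreP4

open Matrix Cfsg.Agent.Lib.Linalg.GL2Conj Module

variable {F : Type*} [Field F] [Fintype F]

omit [Fintype F] in
/-- Cayley-Hamilton in dimension two. -/
theorem cayley2 (A : M2 F) : A * A - A.trace • A + A.det • (1 : M2 F) = 0 := by
  apply eq_entries <;>
    simp [Matrix.mul_apply, Fin.sum_univ_two, Matrix.trace_fin_two, Matrix.det_fin_two] <;> ring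

/-- The Singer element. -/
theorem exists_M (p : ℕ) [Fact p.Prime] [CharP F p] (h3 : 3 ≤ Fintype.card F) :
    ∃ M : GL (Fin 2) F, (M : M2 F).trace ≠ 0 ∧ (M : M2 F).det ≠ 1 ∧
      (∀ r : F, r * r - (M : M2 F).trace * r + (M : M2 F).det ≠ 0) ∧ M ^ (Fintype.card F ^ 2 - 1) = 1 := by
  classical
  set q := Fintype.card F with hq
  let K := FiniteField.Extension F p 2
  letI : Fintype K := Fintype.ofFinite K
  have hr : finrank F K = 2 := FiniteField.finrank_extension F p 2
  have hc : Fintype.card K = q ^ 2 := by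
    have := FiniteField.natCard_extension F p 2
    rwa [Nat.card_eq_fintype_card, Nat.card_eq_fintype_card] at this
  let b : Basis (Fin 2) F K := Module.finBasisOfFinrankEq F K hr
  let φ : K →ₐ[F] M2 F := Algebra.leftMulMatrix b
  have hφ : Function.Injective φ := Algebra.leftMulMatrix_injective b
  obtain ⟨ω, hω⟩ := IsCyclic.exists_generator (α := Kˣ)
  have hord : orderOf ω = q ^ 2 - 1 := by
    rw [orderOf_eq_card_of_forall_mem_zpowers hω, Nat.card_eq_fintype_card, Fintype.card_units, hc]
  have hq2 : 3 ≤ q := h3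
  have hqq : q ^ 2 - 1 = (q - 1) * (q + 1) := by
    have := Nat.sq_sub_sq q 1
    simpa [mul_comm] using this
  have hpos : 0 < q ^ 2 - 1 := by
    rw [hqq]
    exact Nat.mul_pos (by omega) (by omega)
  let M : GL (Fin 2) F := Units.map (φ : K →* M2 F) ω
  have hMc : (M : M2 F) = φ (ω : K) := rfl
  have hMp : M ^ (q ^ 2 - 1) = 1 := by
    show (Units.map (φ : K →* M2 F) ω) ^ (q ^ 2 - 1) = 1
    rw [← map_pow, ← hord, pow_orderOf_eq_one, map_one]
  set τ := (M : M2 F).trace with hτ
  set d := (M : M2 F).det with hd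
  let ι : F →+* K := algebraMap F K
  have hrel : (ω : K) * ω - ι τ * ω + ι d = 0 := by
    apply hφ
    rw [map_zero, map_add, map_sub, map_mul, map_mul]
    have e1 : φ (ι τ) = τ • (1 : M2 F) := by
      show φ (algebraMap F K τ) = _
      rw [AlgHom.commutes]
      ext i j
      simp [Matrix.algebraMap_matrix_apply, Matrix.one_apply, Matrix.smul_apply]
    have e2 : φ (ι d) = d • (1 : M2 F) := by
      show φ (algebraMap F K d) = _
      rw [AlgHom.commutes]
      ext i j
      simp [Matrix.algebraMap_matrix_apply, Matrix.one_apply, Matrix.smul_apply]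
    rw [e1, e2, ← hMc]
    have := cayley2 (M : M2 F)
    rw [← hτ, ← hd] at this
    rw [← this]
    simp
  -- the Frobenius conjugate
  have hfr : ∀ x : F, (ι x) ^ q = ι x := by
    intro x
    rw [← map_pow, FiniteField.pow_card]
  set ω' : K := (ω : K) ^ q with hω'
  have hFrob : ω' * ω' - ι τ * ω' + ι d = 0 := by
    have hadd : ∀ x y : K, (x + y) ^ q = x ^ q + y ^ q := by
      intro x y
      obtain ⟨n, hn, hpn⟩ := FiniteField.card F p
      have hpK : CharP K p := charP_of_injective_algebraMap (algebraMap F K).injective p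
      rw [← hq] at hpn
      rw [hpn]
      exact add_pow_char_pow x y p n
    have hsub : ∀ x y : K, (x - y) ^ q = x ^ q - y ^ q := by
      intro x y
      obtain ⟨n, hn, hpn⟩ := FiniteField.card F p
      have hpK : CharP K p := charP_of_injective_algebraMap (algebraMap F K).injective p
      rw [← hq] at hpn
      rw [hpn]
      exact sub_pow_char_pow x y n
    have := congrArg (fun z : K => z ^ q) hrel
    simp only [hadd, hsub, mul_pow, hfr] at this
    rw [zero_pow (by omega)] at this
    exact this
  have hω0 : (ω : K) ≠ 0 := ω.ne_zero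
  -- pow in the unit group
  have hpow : ∀ n : ℕ, (ω : K) ^ n = 1 → q ^ 2 - 1 ∣ n := by
    intro n hn
    rw [← hord]
    apply orderOf_dvd_of_pow_eq_one
    apply Units.ext
    simpa using hn
  have hne : ω' ≠ (ω : K) := by
    intro h
    have h1 : (ω : K) ^ (q - 1) = 1 := by
      have : (ω : K) ^ (q - 1) * ω = ω := by
        rw [← pow_succ, Nat.sub_add_cancel (by omega)]
        exact h
      exact mul_right_cancel₀ hω0 (by rw [this, one_mul])
    have h2 := Nat.le_of_dvd (by omega) (hpow _ h1)
    rw [hqq] at h2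
    have : (q - 1) * (q + 1) > (q - 1) * 1 := Nat.mul_lt_mul_of_pos_left (by omega) (by omega)
    omega
  have hsum : ι τ = ω + ω' := by
    have h1 : ((ω : K) - ω') * ((ω : K) + ω' - ι τ) = 0 := by
      linear_combination hrel - hFrob
    have h2 := (mul_eq_zero.1 h1).resolve_left (sub_ne_zero.2 hne.symm)
    linear_combination -h2
  have hprod : ι d = ω * ω' := by
    rw [hsum] at hrel
    linear_combination hrel
  refine ⟨M, ?_, ?_, ?_, hMp⟩
  · -- trace nonzero
    intro h0
    have h0' : τ = 0 := h0
    have h1 : ω' = -(ω : K) := by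
      have : (ω : K) + ω' = 0 := by
        rw [← hsum, h0', map_zero]
      linear_combination this
    have h2 : (ω : K) ^ (2 * (q - 1)) = 1 := by
      have e1 : (ω : K) ^ (2 * (q - 1)) * (ω * ω) = ω' * ω' := by
        have h5 : (2 * (q - 1)) + 2 = 2 * q := by omega
        calc (ω : K) ^ (2 * (q - 1)) * (ω * ω) = (ω : K) ^ (2 * (q - 1) + 2) := by rw [pow_add]; ring
          _ = (ω : K) ^ (2 * q) := by rw [h5]
          _ = ω' * ω' := by rw [hω']; ring
      rw [h1] at e1
      have e2 : (ω : K) * ω ≠ 0 := mul_ne_zero hω0 hω0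
      apply mul_right_cancel₀ e2
      rw [e1]
      ring
    have h3' := Nat.le_of_dvd (by omega) (hpow _ h2)
    rw [hqq] at h3'
    have : (q - 1) * (q + 1) > (q - 1) * 2 := Nat.mul_lt_mul_of_pos_left (by omega) (by omega)
    omega
  · -- determinant not one
    intro h1
    have h2 : (ω : K) ^ (q + 1) = 1 := by
      have h1' : d = 1 := h1
      have : ι d = 1 := by rw [h1', map_one]
      rw [hprod, hω'] at this
      rw [pow_succ, mul_comm]
      exact this
    have h3' := Nat.le_of_dvd (by omega) (hpow _ h2)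
    rw [hqq] at h3'
    have : (q - 1) * (q + 1) > 1 * (q + 1) := Nat.mul_lt_mul_of_pos_right (by omega) (by omega)
    omega
  · -- no roots
    intro r hroot
    have h1 : ((ω : K) - ι r) * ((ω : K) - (ι τ - ι r)) = 0 := by
      have := congrArg ι hroot
      simp only [map_add, map_sub, map_mul, map_zero] at this
      linear_combination hrel - this
    have hF : ∀ x : F, (ω : K) = ι x → False := by
      intro x hx
      apply hne
      rw [hω', hx, hfr]
    rcases mul_eq_zero.1 h1 with h | h
    · exact hF r (by linear_combination h)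
    · apply hF (τ - r)
      rw [map_sub]
      linear_combination h

/-- The factorisation for any non-central element, up to a central sign. -/
theorem factor_main (M : GL (Fin 2) F) (hτ : (M : M2 F).trace ≠ 0) (hd1 : (M : M2 F).det ≠ 1)
    (hnr : ∀ r : F, r * r - (M : M2 F).trace * r + (M : M2 F).det ≠ 0)
    (y : SP F) (hy : y ∉ Subgroup.center (SP F)) (hu : ∃ u : F, u ≠ 0 ∧ u ≠ 1) :
    ∃ (c a b z : SP F), z ∈ Subgroup.center (SP F) ∧
      z * (c * y * c⁻¹) = (a * lev M * a⁻¹) * (b * lev M * b⁻¹) := by
  obtain ⟨y₁, hc, A, B, C, D, hb, hdD, hg⟩ := exists_good y hy hu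
  obtain ⟨c, hc⟩ := isConj_iff.1 hc
  rcases good_sign D hdD hg with h | h
  · obtain ⟨a, b, hab⟩ := factor_of_good M hτ hd1 hnr y₁ A B C D hb hdD h
    refine ⟨c, a, b, 1, one_mem _, ?_⟩
    rw [one_mul, hc]
    exact hab
  · have hb' : ((negOne * y₁ : SP F) : M4 F) = fromBlocks (-A) (-B) (-C) (-D) := by
      show ((negOne : SP F) : M4 F) * (y₁ : M4 F) = _
      rw [coe_negOne, hb]
      simp [fromBlocks_neg]
    have hdD' : (-D).det = 1 := by
      rw [Matrix.det_fin_two] at hdD ⊢
      simp only [Matrix.neg_apply]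
      linear_combination hdD
    obtain ⟨a, b, hab⟩ := factor_of_good M hτ hd1 hnr (negOne * y₁) _ _ _ _ hb' hdD' h
    refine ⟨c, a, b, negOne, negOne_mem_center, ?_⟩
    rw [hc]
    exact hab

end Cfsg.Agent.Lib.OreP4
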